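/-
Project IO2 (S3929, helper79/helper15): an involution inverting few elements of odd order.  Definitions.
-/
import Cfsg.Agent.Fgs.InvOdd
import Cfsg.Agent.Even.Amb2
import Cfsg.Agent.Even.CD

set_option autoImplicit false

open Cfsg Subgroup

namespace CL.IO2

universe u

variable {H : Type*} [Group H]

/-- the elements of odd order inverted by `t` -/
def J (t : H) : Set H := {y | Odd (orderOf y) ∧ t * y * t⁻¹ = y⁻¹}

/-- the elements commuting with `t` that fix or invert each element of `J t` -/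
def E (t : H) : Set H := {g | g * t = t * g ∧ ∀ j ∈ J t, g * j * g⁻¹ = j ∨ g * j * g⁻¹ = j⁻¹}

theorem J_eq (t : H) : J t = CL.Fgs.invOdd (MulAut.conj t) := rfl

/-- the kernel lemma, faithful case -/
def N0a : Prop := ∀ (H : Type u) [Group H] [Finite H] (t g y z : H), t * t = 1 → g ∈ E t → y ∈ J t → z ∈ J t →
  g * y * g⁻¹ = y → g * z * g⁻¹ = z⁻¹ → (∀ h : H, h * y = y * h → h * z = z * h → h = 1) → y = 1 ∨ z = 1
/-- the kernel lemma -/
def N0 : Prop := ∀ (H : Type u) [Group H] [Finite H] (t g y z : H), t * t = 1 → g ∈ E t → y ∈ J t → z ∈ J t →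
  g * y * g⁻¹ = y → g * z * g⁻¹ = z⁻¹ → y = 1 ∨ z = 1
/-- the centraliser of `t` -/
def CEN : Prop := ∀ (H : Type u) [Group H] [Finite H] [Nontrivial H] (t : H), t * t = 1 →
  (∀ h : H, (∀ j ∈ J t, h * j = j * h) → h = 1) → ∃ k β : ℕ, 1 ≤ k ∧ 2 * k + 1 ≤ (J t).ncard ∧ 2 ^ β ≤ k ∧
    Nat.card (centralizer ({t} : Set H)) ∣ 2 * k.factorial ∧
    ∀ h : H, h * t = t * h → (∃ e : ℕ, h ^ 2 ^ e = 1) → h ^ 2 ^ (β + 1) = 1
/-- the Brauer-Fowler count -/
def CNT : Prop := ∀ (H : Type u) [Group H] [Finite H] (t : H) (S : Sylow 2 H), t * t = 1 →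
  Nat.card H ≤ (J t).ncard * Nat.card (centralizer ({t} : Set H)) ^ 2 * {s : H | s ∈ S ∧ IsConj t s}.ncard
/-- the order of an element on an abelian normal subgroup -/
def MOD : Prop := ∀ (S : Type u) [Group S] [Finite S] (A W : Subgroup S) [A.Normal] (x : S) (L β i : ℕ), IsPGroup 2 S →
  IsMulCommutative A → W ≤ A → (∀ a ∈ A, x * a * x⁻¹ * a⁻¹ ∈ W) → Nat.card W ≤ 2 ^ L → (∀ w ∈ W, w ^ 2 ^ (β + 1) = 1) →
  L < 2 ^ i → ∀ a ∈ A, x ^ 2 ^ (i + β) * a = a * x ^ 2 ^ (i + β)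
/-- squaring has small fibres -/
def SQ : Prop := ∀ (X : Type u) [Group X] [Finite X] (t : X) (a : ℕ), t * t = 1 →
  {s : X | s * s = 1 ∧ (t * s) ^ 2 ^ a = 1}.ncard ≤ Nat.card (centralizer ({t} : Set X)) ^ a
/-- the centraliser in the quotient -/
def CQ : Prop := ∀ (S : Type u) [Group S] [Finite S] (A : Subgroup S) [A.Normal] (t : S), IsMulCommutative A → t * t = 1 →
  Nat.card (centralizer ({QuotientGroup.mk' A t} : Set (S ⧸ A))) * {x : S | ∃ a ∈ A, x = a * (t * a * t⁻¹)}.ncard ≤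
    Nat.card (centralizer ({t} : Set S))
/-- the 2-group bound -/
def TWO : Prop := ∀ (S : Type u) [Group S] [Finite S] (D : Set S) (k β : ℕ), IsPGroup 2 S → 1 ≤ k → 2 ^ β ≤ k →
  (∀ s ∈ D, s * s = 1 ∧ Nat.card (centralizer ({s} : Set S)) ≤ 2 ^ k ∧ ∀ h : S, h * s = s * h → h ^ 2 ^ (β + 1) = 1) →
  ∃ A : Subgroup S, IsMulCommutative A ∧ D.ncard ≤ (2 * k ^ 2) ^ (k - 1) * Nat.card A
/-- numerics -/
def NUM : Prop := ∀ k m : ℕ, 1 ≤ k → 2 * k + 1 ≤ m →
  m * (2 * k.factorial) ^ 2 * (2 * k ^ 2) ^ (k - 1) < m.factorial ^ 2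
/-- a large abelian subgroup -/
def MM : Prop := ∀ (H : Type u) [Group H] [Finite H] [Nontrivial H] (t : H), t * t = 1 →
  (∀ h : H, (∀ j ∈ J t, h * j = j * h) → h = 1) → ∃ A : Subgroup H, IsMulCommutative A ∧ A.index < (J t).ncard.factorial ^ 2
/-- Chermak-Delgado -/
def CDF : Prop := ∀ (G : Type u) [Group G] [Finite G] (A : Subgroup G), IsMulCommutative A →
  (fittingSubgroup G).index ≤ A.index ^ 2
/-- the centreless case of S3929 -/
def ZL : Prop := ∀ (G : Type u) [Group G] [Finite G] [Nontrivial G] (α : MulAut G), (∀ x, α (α x) = x) →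
  closure (CL.Fgs.invOdd α) = ⊤ → center G = ⊥ → (fittingSubgroup G).index < (CL.Fgs.invOdd α).ncard.factorial ^ 4

end CL.IO2
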