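/-
Project IO2 (S3929): the centraliser of the involution acts on the pairs of inverse elements.
-/
import Cfsg.Agent.IO2.Defs

set_option autoImplicit false

open Cfsg Subgroup

namespace CL.IO2

universe u

namespace CENx

variable {H : Type*} [Group H] {t : H}

theorem cj_mem {c y : H} (hc : c * t = t * c) (hy : y ∈ J t) : c * y * c⁻¹ ∈ J t := by
  refine ⟨(MulEquiv.orderOf_eq (MulAut.conj c) y).symm ▸ hy.1, ?_⟩
  have h1 : t * c = c * t := hc.symm
  calc t * (c * y * c⁻¹) * t⁻¹ = (t * c) * y * (t * c)⁻¹ := by group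
    _ = c * (t * y * t⁻¹) * c⁻¹ := by rw [h1]; group
    _ = _ := by rw [hy.2]; group

theorem inv_mem' {y : H} (hy : y ∈ J t) : y⁻¹ ∈ J t :=
  ⟨by rw [orderOf_inv]; exact hy.1, by rw [show t * y⁻¹ * t⁻¹ = (t * y * t⁻¹)⁻¹ by group, hy.2]⟩

/-- the pairs -/
def Om (t : H) : Type _ := {P : Set H // ∃ y ∈ J t, y ≠ 1 ∧ P = {y, y⁻¹}}

instance [Finite H] : Finite (Om t) := Subtype.finite

theorem cm (c : centralizer ({t} : Set H)) : (c : H) * t = t * c := mem_centralizer_singleton_iff.1 c.2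

instance : MulAction (centralizer ({t} : Set H)) (Om t) where
  smul c P := ⟨(fun x => (c : H) * x * (c : H)⁻¹) '' P.1, by
    obtain ⟨y, hy, h1, e⟩ := P.2
    refine ⟨_, cj_mem (cm c) hy, fun h => h1 (by simpa using h), ?_⟩
    rw [e, Set.image_pair]; congr 2; group⟩
  one_smul P := Subtype.ext (by
    change (fun x => ((1 : centralizer ({t} : Set H)) : H) * x * ((1 : centralizer ({t} : Set H)) : H)⁻¹) '' P.1 = P.1
    simp)
  mul_smul c d P := Subtype.ext (by
    change (fun x => ((c * d : centralizer ({t} : Set H)) : H) * x * ((c * d : centralizer ({t} : Set H)) : H)⁻¹) '' P.1 =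
      (fun x => (c : H) * x * (c : H)⁻¹) '' ((fun x => (d : H) * x * (d : H)⁻¹) '' P.1)
    rw [Set.image_image]; congr 1; funext x; simp [mul_assoc])

theorem mem_E (c : centralizer ({t} : Set H)) (h : ∀ P : Om t, c • P = P) : (c : H) ∈ E t := by
  refine ⟨cm c, fun j hj => ?_⟩
  by_cases h1 : j = 1
  · left; simp [h1]
  have h2 : (fun x => (c : H) * x * (c : H)⁻¹) '' {j, j⁻¹} = {j, j⁻¹} := congrArg Subtype.val (h ⟨_, j, hj, h1, rfl⟩)
  have h3 : (c : H) * j * (c : H)⁻¹ ∈ ({j, j⁻¹} : Set H) := h2 ▸ Set.mem_image_of_mem _ (Set.mem_insert _ _)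
  exact h3

theorem card_le [Finite H] : 2 * Nat.card (Om t) + 1 ≤ (J t).ncard := by
  choose y hy h1 e using fun P : Om t => P.2
  have hne : ∀ P Q, y P ≠ (y Q)⁻¹ := fun P Q h => by
    have h2 : P = Q := Subtype.ext (by rw [e P, e Q, h, inv_inv, Set.pair_comm])
    subst h2
    have h3 : orderOf (y P) ∣ 2 := orderOf_dvd_of_pow_eq_one (by rw [pow_two]; nth_rewrite 1 [h]; simp)
    exact h1 P (orderOf_eq_one_iff.1 ((Nat.coprime_two_right.2 (hy P).1).eq_one_of_dvd h3))
  have hin : ∀ P Q, y P = y Q → P = Q := fun P Q h => Subtype.ext (by rw [e P, e Q, h])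
  let f : Option (Om t ⊕ Om t) → J t := fun o => o.elim ⟨1, by simp [J]⟩
    (Sum.elim (fun P => ⟨y P, hy P⟩) fun P => ⟨(y P)⁻¹, inv_mem' (hy P)⟩)
  have hf : Function.Injective f := by
    rintro (_ | P | P) (_ | Q | Q) h <;> have h2 := congrArg Subtype.val h
    · rfl
    · exact absurd h2.symm (h1 Q)
    · exact absurd (inv_eq_one.1 h2.symm) (h1 Q)
    · exact absurd h2 (h1 P)
    · rw [hin P Q h2]
    · exact absurd h2 (hne P Q)
    · exact absurd (inv_eq_one.1 h2) (h1 P)
    · exact absurd h2.symm (hne Q P)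
    · rw [hin P Q (inv_injective h2)]
  have := Nat.card_le_card_of_injective f hf
  rwa [Finite.card_option, Nat.card_sum, ← two_mul, Nat.card_coe_set_eq] at this

end CENx

open CENx

theorem cen (h : N0.{u}) : CEN.{u} := by
  intro H _ _ _ t ht hf
  have hk : ∀ c : centralizer ({t} : Set H), (∀ P : Om t, c • P = P) → (c : H) = 1 ∨ (c : H) = t := by
    intro c hc
    have h1 := mem_E c hc
    by_cases h2 : ∀ j ∈ J t, (c : H) * j * (c : H)⁻¹ = j
    · exact Or.inl (hf _ fun j hj => mul_inv_eq_iff_eq_mul.1 (h2 j hj))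
    push Not at h2
    obtain ⟨z, hz, h2⟩ := h2
    have h3 := (h1.2 z hz).resolve_left h2
    have h4 : z ≠ 1 := by rintro rfl; simp at h2
    refine Or.inr (inv_mul_eq_one.1 (hf (t⁻¹ * c) fun j hj => ?_)).symm
    have h5 : (c : H) * j * (c : H)⁻¹ = t * j * t⁻¹ := by
      rw [hj.2]
      refine (h1.2 j hj).elim (fun e => ?_) id
      rw [(h H t c j z ht h1 hj hz e h3).resolve_right h4]; simp
    calc t⁻¹ * c * j = t⁻¹ * (c * j * (c : H)⁻¹) * c := by group
      _ = _ := by rw [h5]; group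
  have hk1 : 1 ≤ Nat.card (Om t) := by
    by_contra h0
    have h1 : IsEmpty (Om t) := (Finite.card_eq_zero_iff).1 (by omega)
    obtain ⟨g, hg⟩ := exists_ne (1 : H)
    refine hg (hf g fun j hj => ?_)
    by_contra h2
    exact h1.false ⟨_, j, hj, fun e => h2 (by simp [e]), rfl⟩
  refine ⟨Nat.card (Om t), Nat.log 2 (Nat.card (Om t)), hk1, card_le, Nat.pow_log_le_self 2 (by omega), ?_, ?_⟩
  · let f := MulAction.toPermHom (centralizer ({t} : Set H)) (Om t)
    have h1 : Nat.card f.ker ∣ 2 := by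
      have h2 : f.ker.map (centralizer ({t} : Set H)).subtype ≤ zpowers t := by
        rintro _ ⟨c, hc, rfl⟩
        rcases hk c (fun P => congrArg (fun σ : Equiv.Perm (Om t) => σ P) (MonoidHom.mem_ker.1 hc)) with e | e
        · rw [subtype_apply, e]; exact one_mem _
        · rw [subtype_apply, e]; exact mem_zpowers t
      have h3 := card_dvd_of_le h2
      rw [card_map_of_injective (subtype_injective _), Nat.card_zpowers] at h3
      exact h3.trans (orderOf_dvd_of_pow_eq_one (by rw [pow_two, ht]))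
    have h2 : f.ker.index ∣ (Nat.card (Om t)).factorial := by
      rw [index_ker, ← Nat.card_perm]
      exact card_subgroup_dvd_card _
    rw [← card_mul_index f.ker]
    exact Nat.mul_dvd_mul h1 h2
  · rintro g hg ⟨e, he⟩
    let c : centralizer ({t} : Set H) := ⟨g, mem_centralizer_singleton_iff.2 hg⟩
    have h1 : c ^ 2 ^ e = 1 := Subtype.ext he
    have h2 : ∀ P : Om t, c ^ 2 ^ Nat.log 2 (Nat.card (Om t)) • P = P := fun P => by
      have h3 : MulAction.period c P ∣ 2 ^ e := MulAction.pow_smul_eq_iff_period_dvd.1 (by rw [h1, one_smul])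
      obtain ⟨j, -, h4⟩ := (Nat.dvd_prime_pow Nat.prime_two).1 h3
      have := Fintype.ofFinite (Om t)
      have h5 : MulAction.period c P ≤ Nat.card (Om t) := by
        rw [MulAction.period_eq_minimalPeriod, Nat.card_eq_fintype_card]
        exact Function.minimalPeriod_le_card
      rw [MulAction.pow_smul_eq_iff_period_dvd, h4]
      exact pow_dvd_pow 2 (Nat.le_log_of_pow_le one_lt_two (h4 ▸ h5))
    rw [pow_succ, pow_mul]
    rcases hk _ h2 with e | e
    · rw [show g ^ 2 ^ Nat.log 2 (Nat.card (Om t)) = 1 from e, one_pow]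
    · rw [show g ^ 2 ^ Nat.log 2 (Nat.card (Om t)) = t from e, pow_two, ht]

end CL.IO2
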