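/-
Project IO2: the Brauer-Fowler count.
-/
import Cfsg.Agent.IO2.Defs

set_option autoImplicit false

open Cfsg Subgroup

namespace CL.IO2

universe u

section
variable {H : Type*} [Group H] [Finite H]

theorem cnt_T (t : H) (X : Set H) : Nat.card {h : H // h⁻¹ * t * h ∈ X} ≤
    Nat.card (centralizer ({t} : Set H)) * {s : H | s ∈ X ∧ IsConj t s}.ncard := by
  classical
  have hc : ∀ w : {s : H | s ∈ X ∧ IsConj t s}, ∃ c : H, c⁻¹ * t * c = w := by
    rintro ⟨w, hx, hw⟩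
    obtain ⟨c, hc⟩ := isConj_iff.1 hw
    exact ⟨c⁻¹, by simpa using hc⟩
  choose c hc using hc
  let w : {h : H // h⁻¹ * t * h ∈ X} → {s : H | s ∈ X ∧ IsConj t s} :=
    fun h => ⟨h.1⁻¹ * t * h.1, h.2, isConj_iff.2 ⟨h.1⁻¹, by simp⟩⟩
  have hm : ∀ h : {h : H // h⁻¹ * t * h ∈ X}, h.1 * (c (w h))⁻¹ ∈ centralizer ({t} : Set H) := by
    intro h
    rw [mem_centralizer_singleton_iff]
    have e : (c (w h))⁻¹ * t * c (w h) = h.1⁻¹ * t * h.1 := hc (w h)
    calc h.1 * (c (w h))⁻¹ * t = h.1 * ((c (w h))⁻¹ * t * c (w h)) * (c (w h))⁻¹ := by group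
      _ = t * (h.1 * (c (w h))⁻¹) := by rw [e]; group
  let f : {h : H // h⁻¹ * t * h ∈ X} → centralizer ({t} : Set H) × {s : H | s ∈ X ∧ IsConj t s} :=
    fun h => (⟨h.1 * (c (w h))⁻¹, hm h⟩, w h)
  have hf : Function.Injective f := by
    intro a b hab
    have h2 : w a = w b := congrArg Prod.snd hab
    have h1 : a.1 * (c (w a))⁻¹ = b.1 * (c (w b))⁻¹ := congrArg (fun z => (z.1 : H)) hab
    rw [h2] at h1
    exact Subtype.ext (mul_right_cancel h1)
  rw [← Nat.card_coe_set_eq, ← Nat.card_prod]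
  exact Nat.card_le_card_of_injective f hf

theorem cnt_split (t s : H) (ht : t * t = 1) (hts : IsConj t s) :
    ∃ y ∈ J t, IsConj t (s * y⁻¹) ∧ ∃ e : ℕ, (t * (s * y⁻¹)) ^ 2 ^ e = 1 := by
  have hs : s * s = 1 := by
    obtain ⟨c, rfl⟩ := isConj_iff.1 hts
    calc c * t * c⁻¹ * (c * t * c⁻¹) = c * (t * t) * c⁻¹ := by group
      _ = 1 := by rw [ht]; group
  have hti : t⁻¹ = t := inv_eq_of_mul_eq_one_right ht
  have hsi : s⁻¹ = s := inv_eq_of_mul_eq_one_right hs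
  set x := t * s with hx
  have hxi : x⁻¹ = s * t := by rw [hx, mul_inv_rev, hti, hsi]
  have h1 : t * x * t⁻¹ = x⁻¹ := by
    rw [hxi, hti, hx, ← mul_assoc t t s, ht, one_mul]
  have h2 : s⁻¹ * x * s = x⁻¹ := by
    rw [hxi, hsi, hx, mul_assoc, mul_assoc, hs, mul_one]
  obtain ⟨K, M, hM, hKM⟩ := Nat.exists_eq_two_pow_mul_odd (orderOf_pos x).ne'
  have hcop : Nat.Coprime (2 ^ K) M := Nat.Coprime.pow_left _ (Odd.coprime_two_left hM)
  obtain ⟨a, ha1, ha2⟩ := Nat.chineseRemainder hcop 0 1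
  have hyM : (x ^ a) ^ M = 1 := by
    rw [← pow_mul, ← orderOf_dvd_iff_pow_eq_one, hKM]
    exact Nat.mul_dvd_mul_right ((Nat.modEq_zero_iff_dvd).1 ha1) _
  have hinv : ∀ n : ℕ, s⁻¹ * x ^ n * s = (x ^ n)⁻¹ := by
    intro n
    have := conj_pow (a := s⁻¹) (b := x) (i := n)
    rw [inv_inv] at this
    rw [← this, h2, inv_pow]
  refine ⟨x ^ a, ⟨(hM.of_dvd_nat (orderOf_dvd_of_pow_eq_one hyM)), ?_⟩, ?_, K, ?_⟩
  · rw [← conj_pow, h1, inv_pow]
  · obtain ⟨m, hm⟩ := hM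
    refine hts.trans (isConj_iff.2 ⟨x ^ (a * (m + 1)), ?_⟩)
    have e : x ^ (a * (m + 1)) * x ^ (a * (m + 1)) = x ^ a := by
      rw [← pow_add, show a * (m + 1) + a * (m + 1) = a * M + a by rw [hm]; ring, pow_add, pow_mul, hyM, one_mul]
    calc x ^ (a * (m + 1)) * s * (x ^ (a * (m + 1)))⁻¹
        = s * (s⁻¹ * x ^ (a * (m + 1)) * s) * (x ^ (a * (m + 1)))⁻¹ := by group
      _ = s * (x ^ (a * (m + 1)) * x ^ (a * (m + 1)))⁻¹ := by rw [hinv, mul_inv_rev, mul_assoc]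
      _ = s * (x ^ a)⁻¹ := by rw [e]
  · rw [← mul_assoc, ← hx]
    have hc : Commute x (x ^ a)⁻¹ := ((Commute.refl x).pow_right a).inv_right
    rw [hc.mul_pow, inv_pow, mul_inv_eq_one, ← pow_mul, pow_eq_pow_iff_modEq, hKM]
    have := (ha2.symm).mul_left' (c := 2 ^ K)
    simpa [mul_comm] using this

theorem cnt_sylow (t s : H) (S : Sylow 2 H) (ht : t * t = 1) (hts : IsConj t s) (e : ℕ)
    (he : (t * s) ^ 2 ^ e = 1) : ∃ g : H, g⁻¹ * t * g ∈ S ∧ g⁻¹ * s * g ∈ S := by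
  have hs : s * s = 1 := by
    obtain ⟨c, rfl⟩ := isConj_iff.1 hts
    calc c * t * c⁻¹ * (c * t * c⁻¹) = c * (t * t) * c⁻¹ := by group
      _ = 1 := by rw [ht]; group
  have hti : t⁻¹ = t := inv_eq_of_mul_eq_one_right ht
  have hsi : s⁻¹ = s := inv_eq_of_mul_eq_one_right hs
  have h1 : t * (t * s) * t⁻¹ = (t * s)⁻¹ := by
    rw [mul_inv_rev, hti, hsi, ← mul_assoc t t s, ht, one_mul]
  have hn : zpowers t ≤ normalizer ((zpowers (t * s) : Subgroup H) : Set H) := by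
    rw [zpowers_le]
    have key : ∀ z ∈ zpowers (t * s), t * z * t⁻¹ ∈ zpowers (t * s) := by
      rintro _ ⟨n, rfl⟩
      change t * (t * s) ^ n * t⁻¹ ∈ _
      rw [← conj_zpow, h1]
      exact zpow_mem (inv_mem (mem_zpowers _)) n
    rw [mem_normalizer_iff]
    intro z
    refine ⟨key z, fun hz => ?_⟩
    have := key _ hz
    have e2 : t * (t * z * t⁻¹) * t⁻¹ = z := by
      calc t * (t * z * t⁻¹) * t⁻¹ = (t * t) * z * (t * t)⁻¹ := by group
        _ = z := by rw [ht]; group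
    rwa [e2] at this
  have hP : IsPGroup 2 (zpowers t ⊔ zpowers (t * s) : Subgroup H) :=
    (CL.Even.isPGroup_zpowers (k := 1) (by rw [pow_one, pow_two, ht])).to_sup_of_normal_right'
      (CL.Even.isPGroup_zpowers he) hn
  obtain ⟨P, hP⟩ := hP.exists_le_sylow
  obtain ⟨g, hg⟩ := MulAction.exists_smul_eq H S P
  have htP : t ∈ P := hP (mem_sup_left (mem_zpowers t))
  have hsP : s ∈ P := by
    have : t⁻¹ * (t * s) ∈ (P : Subgroup H) := mul_mem (inv_mem htP) (hP (mem_sup_right (mem_zpowers _)))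
    rw [inv_mul_cancel_left] at this
    exact this
  have key : ∀ z ∈ P, g⁻¹ * z * g ∈ S := by
    intro z hz
    rw [← hg] at hz
    have : z ∈ ((g • S : Sylow 2 H) : Subgroup H) := hz
    rw [Sylow.coe_subgroup_smul, mem_pointwise_smul_iff_inv_smul_mem] at this
    have h3 : g⁻¹ * z * g ∈ (S : Subgroup H) := by simpa using this
    exact h3
  exact ⟨g, key t htP, key s hsP⟩
end

theorem cnt : CNT.{u} := by
  intro H _ _ t S ht
  classical
  let D2 : Set H := {s | IsConj t s ∧ ∃ e : ℕ, (t * s) ^ 2 ^ e = 1}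
  have hA := cnt_T t (Set.univ : Set H)
  have hB := cnt_T t (S : Set H)
  have h0 : Nat.card {h : H // h⁻¹ * t * h ∈ (Set.univ : Set H)} = Nat.card H :=
    Nat.card_congr (Equiv.subtypeUnivEquiv (fun _ => Set.mem_univ _))
  have h1 : {s : H | s ∈ (Set.univ : Set H) ∧ IsConj t s}.ncard ≤ (J t).ncard * Nat.card D2 := by
    have hc : ∀ s : {s : H | s ∈ (Set.univ : Set H) ∧ IsConj t s}, ∃ y ∈ J t, s.1 * y⁻¹ ∈ D2 :=
      fun s => cnt_split t s.1 ht s.2.2
    choose y hy hy2 using hc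
    let f : {s : H | s ∈ (Set.univ : Set H) ∧ IsConj t s} → J t × D2 :=
      fun s => (⟨y s, hy s⟩, ⟨s.1 * (y s)⁻¹, hy2 s⟩)
    have hf : Function.Injective f := by
      intro a b hab
      have e1 : y a = y b := congrArg (fun z => (z.1 : H)) hab
      have e2 : a.1 * (y a)⁻¹ = b.1 * (y b)⁻¹ := congrArg (fun z => (z.2 : H)) hab
      rw [e1] at e2
      exact Subtype.ext (mul_right_cancel e2)
    rw [← Nat.card_coe_set_eq, ← Nat.card_coe_set_eq, ← Nat.card_prod]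
    exact Nat.card_le_card_of_injective f hf
  have h2 : Nat.card D2 ≤ Nat.card {h : H // h⁻¹ * t * h ∈ (S : Set H)} := by
    have hc : ∀ s : D2, ∃ g : H, g⁻¹ * t * g ∈ S ∧ g⁻¹ * s.1 * g ∈ S := by
      rintro ⟨s, hs, e, he⟩
      exact cnt_sylow t s S ht hs e he
    choose g hg hg2 using hc
    have hm : ∀ (z : H) (a : H) (v : (S : Subgroup H)), a⁻¹ * z * a ∈ S → (a * v)⁻¹ * z * (a * v) ∈ S := by
      intro z a v hz
      have : (v : H)⁻¹ * (a⁻¹ * z * a) * v ∈ (S : Subgroup H) := mul_mem (mul_mem (inv_mem v.2) hz) v.2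
      have e : (a * v)⁻¹ * z * (a * v) = (v : H)⁻¹ * (a⁻¹ * z * a) * v := by group
      rw [e]; exact this
    let f : D2 × (S : Subgroup H) → {h : H // h⁻¹ * t * h ∈ (S : Set H)} × (S : Subgroup H) :=
      fun z => (⟨g z.1 * z.2, hm t _ z.2 (hg z.1)⟩, ⟨(g z.1 * z.2)⁻¹ * z.1.1 * (g z.1 * z.2), hm _ _ z.2 (hg2 z.1)⟩)
    have hf : Function.Injective f := by
      rintro ⟨a, v⟩ ⟨b, w⟩ hab
      have e1 : g a * v = g b * w := congrArg (fun z => (z.1 : H)) hab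
      have e2 : (g a * v)⁻¹ * a.1 * (g a * v) = (g b * w)⁻¹ * b.1 * (g b * w) := congrArg (fun z => (z.2 : H)) hab
      rw [e1] at e2
      have e3 : a = b := Subtype.ext (mul_left_cancel (mul_right_cancel e2))
      subst e3
      exact Prod.ext rfl (Subtype.ext (mul_left_cancel e1))
    have := Nat.card_le_card_of_injective f hf
    rw [Nat.card_prod, Nat.card_prod] at this
    exact Nat.le_of_mul_le_mul_right this Nat.card_pos
  rw [h0] at hA
  calc Nat.card H ≤ Nat.card (centralizer ({t} : Set H)) * ((J t).ncard * (Nat.card (centralizer ({t} : Set H)) *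
        {s : H | s ∈ (S : Set H) ∧ IsConj t s}.ncard)) :=
        hA.trans (Nat.mul_le_mul_left _ (h1.trans (Nat.mul_le_mul_left _ (h2.trans hB))))
    _ = (J t).ncard * Nat.card (centralizer ({t} : Set H)) ^ 2 * {s : H | s ∈ (S : Set H) ∧ IsConj t s}.ncard := by ring
    _ = _ := rfl

end CL.IO2
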