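/-
Project IO2 (S3929): reduction to the centreless case.
-/
import Cfsg.Agent.IO2.Defs

set_option autoImplicit false

open Cfsg Subgroup CL.Fgs

namespace CL.IO2

universe u

theorem fin (hZ : ZL.{u}) (n : ℕ) : ∀ (G : Type u) [Group G] [Finite G] [Nontrivial G] (α : MulAut G), Nat.card G = n →
    (∀ x, α (α x) = x) → closure (invOdd α) = ⊤ → (fittingSubgroup G).index < (invOdd α).ncard.factorial ^ 4 := by
  induction n using Nat.strong_induction_on with | _ n ih
  intro G _ _ _ α hn hα hJ
  by_cases h0 : center G = ⊥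
  · exact hZ G α hα hJ h0
  have key : (fittingSubgroup (G ⧸ center G)).comap (QuotientGroup.mk' (center G)) ≤ fittingSubgroup G := by
    refine CL.Grp.le_fittingSubgroup ?_
    have := CL.Grp.fittingSubgroup_isNilpotent (G ⧸ center G)
    refine Subgroup.isNilpotent_of_ker_le_center ((QuotientGroup.mk' (center G)).subgroupComap _) fun x hx => ?_
    have : (x : G) ∈ center G := (QuotientGroup.eq_one_iff _).1 (congrArg Subtype.val hx)
    exact mem_center_iff.2 fun g => Subtype.ext (mem_center_iff.1 this g)
  have le := Subgroup.index_antitone key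
  rw [index_comap_of_surjective _ (QuotientGroup.mk'_surjective _)] at le
  refine le.trans_lt ?_
  rcases subsingleton_or_nontrivial (G ⧸ center G) with hs | hs
  · rw [Subsingleton.elim (fittingSubgroup (G ⧸ center G)) ⊤, index_top]
    refine Nat.one_lt_pow (by decide) (Nat.one_lt_factorial.2 ((Set.one_lt_ncard (Set.toFinite _)).2 ?_))
    by_contra! k
    refine absurd (hJ.symm.trans (closure_eq_bot_iff.2 fun y hy => k y hy 1 (one_mem_invOdd α))) top_ne_bot
  obtain ⟨β, hβ, hρ⟩ := exists_quot_aut α hα (center G) fun x hx => mem_center_iff.2 fun g => by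
    rw [← hα g, ← map_mul, mem_center_iff.1 hx, map_mul]
  refine (ih _ ?_ _ β rfl hβ (closure_invOdd_of_surj hα (QuotientGroup.mk'_surjective _) hρ hJ)).trans_le
    (Nat.pow_le_pow_left (Nat.factorial_le ?_) 4)
  · rw [← hn, card_eq_card_quotient_mul_card_subgroup (center G)]
    exact lt_mul_of_one_lt_right Nat.card_pos ((one_lt_card_iff_ne_bot _).2 h0)
  · rw [← image_invOdd hα (QuotientGroup.mk'_surjective _) hρ]
    exact Set.ncard_image_le (Set.toFinite _)

end CL.IO2
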