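/-
Project IO2 (S3929): the numerics and the large abelian subgroup.
-/
import Cfsg.Agent.IO2.Defs

set_option autoImplicit false

open Cfsg Subgroup

namespace CL.IO2

universe u

namespace MMx

theorem step (k : ℕ) : ∀ j i : ℕ, j + i = k →
    k.factorial * (k + 1 + i).factorial * (2 * k ^ 2) ^ j ≤ (k + j).factorial * (2 * k + 1).factorial
  | 0, i, h => by
    obtain rfl : i = k := by omega
    rw [pow_zero, mul_one, add_zero, show i + 1 + i = 2 * i + 1 by ring]
  | j + 1, i, h => by
    have ih := step k j (i + 1) (by omega)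
    have h1 : 2 * k ^ 2 ≤ (k + j + 1) * (k + 1 + i + 1) := by subst h; nlinarith
    rw [← add_assoc, Nat.factorial_succ] at ih
    rw [← add_assoc, Nat.factorial_succ (k + j), pow_succ]
    calc _ = k.factorial * (k + 1 + i).factorial * (2 * k ^ 2) ^ j * (2 * k ^ 2) := by ring
      _ ≤ k.factorial * (k + 1 + i).factorial * (2 * k ^ 2) ^ j * ((k + j + 1) * (k + 1 + i + 1)) :=
        Nat.mul_le_mul_left _ h1
      _ = (k + j + 1) * (k.factorial * ((k + 1 + i + 1) * (k + 1 + i).factorial) * (2 * k ^ 2) ^ j) := by ring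
      _ ≤ (k + j + 1) * ((k + j).factorial * (2 * k + 1).factorial) := Nat.mul_le_mul_left _ ih
      _ = _ := by ring

theorem le_of_dvd {j k : ℕ} (hk : 1 ≤ k) (h : 2 ^ j ∣ 2 * k.factorial) : j ≤ k := by
  by_contra hj
  have h1 : 2 * 2 ^ k ∣ 2 * k.factorial := by
    rw [← pow_succ']; exact (pow_dvd_pow 2 (by omega)).trans h
  exact (Nat.emultiplicity_two_factorial_lt (n := k) (by omega)).not_ge
    (pow_dvd_iff_le_emultiplicity.1 (Nat.dvd_of_mul_dvd_mul_left two_pos h1))

end MMx

open MMx in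
theorem num : NUM := by
  intro k m hk hm
  have h := step k (k - 1) 1 (by omega)
  obtain ⟨n, rfl⟩ : ∃ n, m = n + 1 := ⟨m - 1, by omega⟩
  have h1 : (k + (k - 1)).factorial * (2 * k + 1).factorial ≤ n.factorial * (n + 1).factorial :=
    Nat.mul_le_mul (Nat.factorial_le (by omega)) (Nat.factorial_le hm)
  have h2 : (2 * k.factorial) ^ 2 < k.factorial * (k + 1 + 1).factorial := by
    have := k.factorial_pos
    rw [Nat.factorial_succ, Nat.factorial_succ]
    calc _ = 4 * (k.factorial * k.factorial) := by ring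
      _ < ((k + 1 + 1) * (k + 1)) * (k.factorial * k.factorial) :=
        Nat.mul_lt_mul_of_pos_right (by nlinarith) (by positivity)
      _ = _ := by ring
  have h3 := (Nat.mul_lt_mul_of_pos_right h2 (show 0 < (2 * k ^ 2) ^ (k - 1) by positivity)).trans_le (h.trans h1)
  calc _ = (n + 1) * ((2 * k.factorial) ^ 2 * (2 * k ^ 2) ^ (k - 1)) := by ring
    _ < (n + 1) * (n.factorial * (n + 1).factorial) := Nat.mul_lt_mul_of_pos_left h3 n.succ_pos
    _ = _ := by rw [← mul_assoc, ← Nat.factorial_succ, pow_two]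

open MMx in
theorem mm (h1 : CEN.{u}) (h2 : CNT.{u}) (h3 : TWO.{u}) : MM.{u} := by
  intro H _ _ _ t ht hf
  obtain ⟨k, β, hk, hm, hβ, hc, he⟩ := h1 H t ht hf
  obtain ⟨S⟩ : Nonempty (Sylow 2 H) := inferInstance
  obtain ⟨A, hA, hD⟩ := h3 S {s : S | IsConj t (s : H)} k β S.isPGroup' hk hβ (fun s hs => by
    obtain ⟨c, hc'⟩ := isConj_iff.1 hs
    have cm : ∀ h : S, h * s = s * h → c⁻¹ * h * c * t = t * (c⁻¹ * h * c) := fun h e => by
      have e' : (h : H) * (c * t * c⁻¹) = c * t * c⁻¹ * h := by rw [hc']; exact congrArg Subtype.val e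
      calc _ = c⁻¹ * ((h : H) * (c * t * c⁻¹)) * c := by group
        _ = _ := by rw [e']; group
    refine ⟨Subtype.ext ?_, ?_, fun h e => Subtype.ext ?_⟩
    · rw [coe_mul, ← hc', show c * t * c⁻¹ * (c * t * c⁻¹) = c * (t * t) * c⁻¹ by group, ht]; simp
    · obtain ⟨j, hj⟩ := IsPGroup.iff_card.1 (S.isPGroup'.to_subgroup (centralizer {s}))
      have := card_dvd_of_injective (((MulAut.conj c⁻¹).toMonoidHom.comp ((S : Subgroup H).subtype.comp
        (centralizer ({s} : Set S)).subtype)).codRestrict (centralizer {t}) fun x => mem_centralizer_singleton_iff.2 (by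
          simpa using cm x (mem_centralizer_singleton_iff.1 x.2))) fun x y e =>
        Subtype.ext (Subtype.ext ((MulAut.conj c⁻¹).injective (congrArg Subtype.val e)))
      rw [hj] at this ⊢
      exact Nat.pow_le_pow_right two_pos (le_of_dvd hk (this.trans hc))
    · obtain ⟨e', he'⟩ := S.isPGroup' h
      have cp : ∀ n : ℕ, (c⁻¹ * h * c) ^ n = c⁻¹ * (h : H) ^ n * c := fun n => by simpa using conj_pow (i := n) (a := c⁻¹) (b := (h : H))
      have := he _ (cm h e) ⟨e', by rw [cp, show (h : H) ^ 2 ^ e' = 1 from congrArg Subtype.val he']; simp⟩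
      rw [cp, mul_eq_one_iff_eq_inv, mul_eq_left] at this
      exact this)
  have := hA
  refine ⟨A.map (S : Subgroup H).subtype, inferInstance, ?_⟩
  have e1 : {s : H | s ∈ S ∧ IsConj t s}.ncard = {s : S | IsConj t (s : H)}.ncard := by
    rw [← Set.ncard_image_of_injective _ Subtype.val_injective]
    congr 1
    ext x
    exact ⟨fun h => ⟨⟨x, h.1⟩, h.2, rfl⟩, by rintro ⟨s, hs, rfl⟩; exact ⟨s.2, hs⟩⟩
  have e2 := h2 H t S ht
  rw [e1, ← (A.map (S : Subgroup H).subtype).index_mul_card, card_map_of_injective (subtype_injective _)] at e2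
  have e3 := e2.trans (Nat.mul_le_mul (Nat.mul_le_mul_left _ (Nat.pow_le_pow_left
    (Nat.le_of_dvd (by have := k.factorial_pos; omega) hc) 2)) hD)
  rw [← mul_assoc] at e3
  exact (Nat.le_of_mul_le_mul_right e3 Nat.card_pos).trans_lt (num k _ hk hm)

end CL.IO2
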