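/-
Project IO2 (S3929), job MOD: the order of an element on an abelian normal subgroup.
-/
import Cfsg.Agent.IO2.Defs

set_option autoImplicit false

open Cfsg Subgroup

namespace CL.IO2

universe u

namespace Mod

theorem pw {R : Type*} [Ring R] (v : R) (n : ℕ) : ∃ q, v ^ 2 ^ n - 1 = (v - 1) ^ 2 ^ n + 2 * ((v - 1) * q) := by
  induction n with
  | zero => exact ⟨0, by simp⟩
  | succ n ih =>
    obtain ⟨q, hq⟩ := ih
    obtain ⟨m, hm⟩ : ∃ m, 2 ^ n = m + 1 := ⟨2 ^ n - 1, by have := Nat.one_le_two_pow (n := n); omega⟩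
    rw [pow_succ, pow_mul, pow_mul, sub_eq_iff_eq_add.1 hq, hm, pow_succ' (v - 1) m]
    generalize v - 1 = φ
    generalize φ ^ m = P
    exact ⟨P * φ * q + q * φ * P + 2 * (q * φ * q) + P + 2 * q, by noncomm_ring⟩

variable {M : Type*} [AddCommGroup M] [Finite M]

theorem chain {φ : Module.End ℤ M} {W : Submodule ℤ M} {K L : ℕ} (hK : φ ^ K = 0) (hW : ∀ a, φ a ∈ W)
    (hc : Nat.card W ≤ 2 ^ L) : φ ^ (L + 1) = 0 := by
  have st : ∀ j, W.map (φ ^ (j + 1)) = (W.map (φ ^ j)).map φ := fun j => by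
    rw [pow_succ', ← Submodule.map_comp]; rfl
  have le : ∀ j, W.map (φ ^ (j + 1)) ≤ W.map (φ ^ j) := by
    rintro j _ ⟨w, -, rfl⟩
    exact ⟨φ w, hW w, by rw [pow_succ]; rfl⟩
  have z : ∀ j, W.map (φ ^ (j + 1)) = W.map (φ ^ j) → W.map (φ ^ j) = ⊥ := fun j h => by
    have : ∀ m, W.map (φ ^ (j + m)) = W.map (φ ^ j) := fun m => by
      induction m with
      | zero => rfl
      | succ m ih => rw [← add_assoc, st, ih, ← st, h]
    rw [← this K, pow_add, hK, mul_zero, Submodule.map_zero]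
  have key : ∀ j, W.map (φ ^ j) = ⊥ ∨ 2 ^ j * Nat.card (W.map (φ ^ j)) ≤ Nat.card W := fun j => by
    induction j with
    | zero => exact .inr (by rw [pow_zero, pow_zero, one_mul, Module.End.one_eq_id, Submodule.map_id])
    | succ j ih =>
      by_cases h : W.map (φ ^ (j + 1)) = W.map (φ ^ j)
      · exact .inl (h.trans (z j h))
      refine ih.imp (fun e => le_bot_iff.1 ((le j).trans e.le)) fun e => le_trans ?_ e
      obtain ⟨c, hc⟩ : Nat.card (W.map (φ ^ (j + 1))) ∣ Nat.card (W.map (φ ^ j)) :=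
        AddSubgroup.card_dvd_of_le (H := (W.map (φ ^ (j + 1))).toAddSubgroup) (K := (W.map (φ ^ j)).toAddSubgroup) (le j)
      have c0 : c ≠ 0 := by
        rintro rfl
        exact Nat.card_pos.ne' hc
      have c1 : c ≠ 1 := by
        rintro rfl
        exact h (Submodule.toAddSubgroup_injective (AddSubgroup.eq_of_le_of_card_ge (le j) (by simpa using hc.le)))
      rw [hc, pow_succ, mul_assoc, mul_comm 2]
      exact Nat.mul_le_mul_left _ (Nat.mul_le_mul_left _ (by omega))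
  have h0 : W.map (φ ^ L) = ⊥ := (key L).elim id fun e => Submodule.toAddSubgroup_injective
    (AddSubgroup.eq_bot_of_card_le _ (Nat.le_of_mul_le_mul_left (by simpa using e.trans hc) (Nat.two_pow_pos L)))
  ext a
  have : (φ ^ L) (φ a) ∈ W.map (φ ^ L) := ⟨_, hW a, rfl⟩
  rw [h0] at this
  rw [pow_succ]
  exact this

theorem core {v : Module.End ℤ M} {W : Submodule ℤ M} {N N' L β i : ℕ} (hv : v ^ 2 ^ N = 1)
    (hM : ∀ a : M, 2 ^ N' • a = 0) (hW : ∀ a, (v - 1) a ∈ W) (hc : Nat.card W ≤ 2 ^ L)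
    (he : ∀ w ∈ W, 2 ^ (β + 1) • w = 0) (hi : L < 2 ^ i) : v ^ 2 ^ (i + β) = 1 := by
  have two : ∀ (f : Module.End ℤ M) a, (2 * f) a = 2 • f a := fun f a => by simp [two_mul, two_nsmul]
  obtain ⟨q, hq⟩ := pw v N
  rw [hv, sub_self, eq_comm, add_eq_zero_iff_eq_neg, ← mul_neg] at hq
  have hK : (v - 1) ^ (2 ^ N * N') = 0 := by
    rw [pow_mul, hq, (Commute.ofNat_left 2 _).mul_pow]
    ext a
    rw [Module.End.mul_apply, LinearMap.zero_apply, ← hM (((-((v - 1) * q)) ^ N') a), ← Nat.cast_ofNat, ← Nat.cast_pow,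
      Module.End.natCast_apply]
  have h0 : (v - 1) ^ 2 ^ i = 0 := pow_eq_zero_of_le hi (chain hK hW hc)
  have key : ∀ l a, ∃ w ∈ W, (v ^ 2 ^ (i + l) - 1 : Module.End ℤ M) a = 2 ^ (l + 1) • w := fun l => by
    induction l with
    | zero =>
      obtain ⟨q, hq⟩ := pw v i
      exact fun a => ⟨_, hW (q a), by rw [add_zero, hq, h0, zero_add, two]; rfl⟩
    | succ l ih =>
      intro a
      obtain ⟨w, hw, e⟩ := ih a
      obtain ⟨w', hw', e'⟩ := ih w
      refine ⟨2 ^ l • w' + w, W.add_mem (nsmul_mem hw' _) hw, ?_⟩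
      have : v ^ 2 ^ (i + (l + 1)) - 1 = (v ^ 2 ^ (i + l) - 1) * (v ^ 2 ^ (i + l) - 1) + 2 * (v ^ 2 ^ (i + l) - 1) := by
        rw [← add_assoc, pow_succ, pow_mul]; noncomm_ring
      rw [this, LinearMap.add_apply, two, Module.End.mul_apply, e, map_nsmul, e', smul_add, smul_smul, smul_smul,
        smul_smul]
      congr 2 <;> ring
  rw [← sub_eq_zero]
  ext a
  obtain ⟨w, hw, e⟩ := key β a
  rw [e, he w hw]; rfl

end Mod

open scoped IsMulCommutative in
theorem mod : MOD.{u} := by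
  intro S _ _ A W _ x L β i hS hA hWA hx hc he hi a ha
  let v : Module.End ℤ (Additive A) :=
    (MonoidHom.toAdditive (MulAut.conjNormal x : MulAut A).toMonoidHom).toIntLinearMap
  have hv : ∀ n (a : A), ((Additive.toMul ((v ^ n) (Additive.ofMul a)) : A) : S) = x ^ n * a * (x ^ n)⁻¹ := fun n => by
    induction n with
    | zero => simp
    | succ n ih =>
      intro a
      rw [pow_succ, Module.End.mul_apply]
      refine (ih (MulAut.conjNormal x a)).trans ?_
      rw [MulAut.conjNormal_apply, pow_succ]; group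
  obtain ⟨N, hN⟩ := hS x
  have : Fact (Nat.Prime 2) := ⟨Nat.prime_two⟩
  obtain ⟨N', hN'⟩ := (hS.to_subgroup A).exists_card_eq
  have := Mod.core (v := v) (W := (W.subgroupOf A).toAddSubgroup.toIntSubmodule) (N := N) (N' := N') (L := L) (β := β)
    (i := i) (LinearMap.ext fun a => Subtype.ext ((hv _ a).trans (by rw [hN]; simp)))
    (fun a => by rw [← hN']; exact card_nsmul_eq_zero')
    (fun a => by
      have := hx _ (Additive.toMul a).2
      rw [← div_eq_mul_inv] at this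
      exact this)
    ((Nat.card_congr (subgroupOfEquivOfLe hWA).toEquiv).trans_le hc) (fun w hw => Subtype.ext (he _ hw)) hi
  have h1 := hv (2 ^ (i + β)) ⟨a, ha⟩
  rw [this] at h1
  exact mul_inv_eq_iff_eq_mul.1 h1.symm

end CL.IO2
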