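/-
Project IO2, part N0: the kernel lemma.
-/
import Cfsg.Agent.IO2.Defs

set_option autoImplicit false

open Cfsg Subgroup CL.Even

namespace CL.IO2

universe u

namespace N0x

variable {H : Type*} [Group H]

theorem odd_sq {y : H} (ho : Odd (orderOf y)) (h : y = y⁻¹) : y = 1 := by
  have h2 : orderOf y ∣ 2 := orderOf_dvd_of_pow_eq_one (by rw [pow_two]; nth_rewrite 2 [h]; exact mul_inv_cancel y)
  rcases (Nat.dvd_prime Nat.prime_two).1 h2 with e | e
  · exact orderOf_eq_one_iff.1 e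
  · rw [e] at ho; exact absurd ho (by decide)

theorem comm {t g y z : H} (hg : g ∈ E t) (hy : y ∈ J t) (hz : z ∈ J t) (gy : g * y * g⁻¹ = y)
    (gz : g * z * g⁻¹ = z⁻¹) (c : Commute y z) : y = 1 ∨ z = 1 := by
  have m : y * z ∈ J t := ⟨(hy.1.mul hz.1).of_dvd_nat c.orderOf_mul_dvd_mul_orderOf, by
    rw [← conj_mul, hy.2, hz.2, c.eq, mul_inv_rev]⟩
  rcases hg.2 _ m with e | e
  · rw [← conj_mul, gy, gz] at e
    exact Or.inr (odd_sq hz.1 (mul_left_cancel e).symm)
  · rw [← conj_mul, gy, gz, c.eq, mul_inv_rev] at e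
    exact Or.inl (odd_sq hy.1 (mul_right_cancel e))

theorem mem_norm [Finite H] {g y z : H} (h1 : g * y * g⁻¹ ∈ closure ({y, z} : Set H))
    (h2 : g * z * g⁻¹ ∈ closure ({y, z} : Set H)) : g ∈ normalizer (closure ({y, z} : Set H) : Set H) := by
  refine mem_norm_of_cj_le ?_
  rw [MonoidHom.map_closure, closure_le]
  rintro _ ⟨x, rfl | rfl, rfl⟩
  exacts [h1, h2]

end N0x

open N0x in
theorem n0 (h : N0a.{u}) : N0.{u} := by
  suffices key : ∀ (n : ℕ) (H : Type u) [Group H] [Finite H], Nat.card H = n → ∀ t g y z : H, t * t = 1 → g ∈ E t →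
      y ∈ J t → z ∈ J t → g * y * g⁻¹ = y → g * z * g⁻¹ = z⁻¹ → y = 1 ∨ z = 1 from
    fun H _ _ => key _ H rfl
  intro n
  induction n using Nat.strong_induction_on with
  | _ n ih =>
  intro H _ _ hn t g y z tt hg hy hz gy gz
  set L := closure ({y, z} : Set H) with hL
  have yL : y ∈ L := subset_closure (by simp)
  have zL : z ∈ L := subset_closure (by simp)
  by_cases hC : centralizer (L : Set H) = ⊥
  · refine h H t g y z tt hg hy hz gy gz fun k k1 k2 => mem_bot.1 (hC ▸ ?_)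
    rw [hL, centralizer_closure, mem_centralizer_iff]
    rintro _ (rfl | rfl)
    exacts [k1.symm, k2.symm]
  have tN : t ∈ normalizer (L : Set H) := mem_norm (by rw [hy.2]; exact inv_mem yL) (by rw [hz.2]; exact inv_mem zL)
  have gN : g ∈ normalizer (L : Set H) := mem_norm (by rw [gy]; exact yL) (by rw [gz]; exact inv_mem zL)
  have yN : y ∈ normalizer (L : Set H) := le_normalizer yL
  have zN : z ∈ normalizer (L : Set H) := le_normalizer zL
  set N := normalizer (L : Set H) with hN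
  set C := (centralizer (L : Set H)).subgroupOf N with hC'
  have : C.Normal := (normal_subgroupOf_iff_le_normalizer (cent_le_norm L)).2 (norm_le_norm_cent L)
  let π : N →* N ⧸ C := QuotientGroup.mk' C
  have sj : Function.Surjective π := QuotientGroup.mk'_surjective C
  have lt : Nat.card (N ⧸ C) < n := by
    have h1 : C ≠ ⊥ := fun e => hC (by
      rwa [hC', subgroupOf_eq_bot, disjoint_iff, inf_eq_left.2 (cent_le_norm L)] at e)
    have h2 := card_eq_card_quotient_mul_card_subgroup C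
    have h3 : 1 < Nat.card C := (one_lt_card_iff_ne_bot C).2 h1
    have h4 : Nat.card N ≤ n := hn ▸ card_le_card_group N
    have h5 : 0 < Nat.card (N ⧸ C) := Nat.card_pos
    nlinarith
  have im : π '' J (⟨t, tN⟩ : N) = J (π ⟨t, tN⟩) :=
    CL.Fgs.image_invOdd (α := MulAut.conj (⟨t, tN⟩ : N)) (β := MulAut.conj (π ⟨t, tN⟩))
      (fun x => Subtype.ext (by
        simp only [MulAut.conj_apply, coe_mul, InvMemClass.coe_inv]
        rw [show t * (t * x * t⁻¹) * t⁻¹ = t * t * x * (t * t)⁻¹ by group, tt]; group)) sj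
      fun x => by simp
  have up : ∀ {j : N}, j ∈ J (⟨t, tN⟩ : N) ↔ (j : H) ∈ J t := fun {j} =>
    and_congr (by rw [orderOf_coe]) Subtype.ext_iff
  have key := ih _ lt (N ⧸ C) rfl (π ⟨t, tN⟩) (π ⟨g, gN⟩) (π ⟨y, yN⟩) (π ⟨z, zN⟩)
    (by rw [← map_mul, show (⟨t, tN⟩ * ⟨t, tN⟩ : N) = 1 from Subtype.ext tt, map_one])
    ⟨by rw [← map_mul, ← map_mul]; exact congrArg π (Subtype.ext hg.1), fun j hj => by
      rw [← im] at hj
      obtain ⟨j, hj, rfl⟩ := hj
      rw [← map_inv, ← map_inv, ← map_mul, ← map_mul]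
      exact (hg.2 _ (up.1 hj)).imp (fun e => congrArg π (Subtype.ext e)) fun e => congrArg π (Subtype.ext e)⟩
    (im ▸ ⟨_, up.2 hy, rfl⟩) (im ▸ ⟨_, up.2 hz, rfl⟩)
    (by rw [← map_inv, ← map_mul, ← map_mul]; exact congrArg π (Subtype.ext gy))
    (by rw [← map_inv, ← map_inv, ← map_mul, ← map_mul]; exact congrArg π (Subtype.ext gz))
  refine comm hg hy hz gy gz ?_
  rcases key with e | e
  · exact (mem_centralizer_iff.1 (mem_subgroupOf.1 ((QuotientGroup.eq_one_iff _).1 e)) z zL).symm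
  · exact mem_centralizer_iff.1 (mem_subgroupOf.1 ((QuotientGroup.eq_one_iff _).1 e)) y yL

end CL.IO2
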