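/-
Project IO2 (S3929): the kernel lemma, faithful case.
-/
import Cfsg.Agent.IO2.Defs

set_option autoImplicit false

open Cfsg Subgroup

namespace CL.IO2

universe u

variable {H : Type u} [Group H]

theorem odd_sqrt {y : H} (h : Odd (orderOf y)) : ∃ n, y ^ n * y ^ n = y := by
  obtain ⟨r, hr⟩ := h
  exact ⟨r + 1, by rw [← pow_add, show r + 1 + (r + 1) = orderOf y + 1 by omega, pow_succ, pow_orderOf_eq_one, one_mul]⟩

theorem odd_one {y : H} (h : Odd (orderOf y)) (e : y * y = 1) : y = 1 := by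
  obtain ⟨n, hn⟩ := odd_sqrt h
  rw [← hn, ← (Commute.refl y).mul_pow, e, one_pow]

/-- an element of odd order acting by a sign acts trivially -/
theorem odd_sign {y w : H} (h : Odd (orderOf y)) (e : y * w * y⁻¹ = w ∨ y * w * y⁻¹ = w⁻¹) : y * w = w * y := by
  rcases e with e | e
  · exact mul_inv_eq_iff_eq_mul.1 e
  obtain ⟨n, hn⟩ := odd_sqrt h
  have c : Commute (y * y) w := mul_inv_eq_iff_eq_mul.1 (by
    rw [show y * y * w * (y * y)⁻¹ = y * (y * w * y⁻¹) * y⁻¹ by group, e,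
      show y * w⁻¹ * y⁻¹ = (y * w * y⁻¹)⁻¹ by group, e, inv_inv])
  have := c.pow_left n
  rwa [(Commute.refl y).mul_pow, hn] at this

theorem J_conj {t j : H} (c : H) (h : j ∈ J t) : c * j * c⁻¹ ∈ J (c * t * c⁻¹) :=
  ⟨by rw [show orderOf (c * j * c⁻¹) = orderOf j from (MulAut.conj c).orderOf_eq j]; exact h.1, by
    rw [show c * t * c⁻¹ * (c * j * c⁻¹) * (c * t * c⁻¹)⁻¹ = c * (t * j * t⁻¹) * c⁻¹ by group, h.2]; group⟩

theorem E_conj {t g : H} (c : H) (h : g ∈ E t) : c * g * c⁻¹ ∈ E (c * t * c⁻¹) :=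
  ⟨by rw [show c * g * c⁻¹ * (c * t * c⁻¹) = c * (g * t) * c⁻¹ by group, h.1]; group, fun j hj => by
    have k := J_conj c⁻¹ hj
    rw [show c⁻¹ * (c * t * c⁻¹) * c⁻¹⁻¹ = t by group] at k
    have e : c * g * c⁻¹ * j * (c * g * c⁻¹)⁻¹ = c * (g * (c⁻¹ * j * c⁻¹⁻¹) * g⁻¹) * c⁻¹ := by group
    rcases h.2 _ k with k | k <;> rw [e, k]
    · left; group
    · right; group⟩

theorem E_self (t : H) : t ∈ E t := ⟨rfl, fun _ hj => .inr hj.2⟩

theorem sign_mul {g h j : H} (a : g * j * g⁻¹ = j ∨ g * j * g⁻¹ = j⁻¹) (b : h * j * h⁻¹ = j ∨ h * j * h⁻¹ = j⁻¹) :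
    g * h * j * (g * h)⁻¹ = j ∨ g * h * j * (g * h)⁻¹ = j⁻¹ := by
  have e : g * h * j * (g * h)⁻¹ = g * (h * j * h⁻¹) * g⁻¹ := by group
  have f : g * j⁻¹ * g⁻¹ = (g * j * g⁻¹)⁻¹ := by group
  rcases b with b | b <;> rw [e, b]
  · exact a
  · rcases a with a | a <;> rw [f, a]
    · exact .inr rfl
    · exact .inl (inv_inv j)

theorem E_mul {t g h : H} (a : g ∈ E t) (b : h ∈ E t) : g * h ∈ E t :=
  ⟨by rw [mul_assoc, b.1, ← mul_assoc, a.1, mul_assoc], fun j hj => sign_mul (a.2 j hj) (b.2 j hj)⟩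

theorem sign_sq {g j : H} (a : g * j * g⁻¹ = j ∨ g * j * g⁻¹ = j⁻¹) : g * g * j = j * (g * g) := by
  refine mul_inv_eq_iff_eq_mul.1 ?_
  have e : g * g * j * (g * g)⁻¹ = g * (g * j * g⁻¹) * g⁻¹ := by group
  rcases a with a | a
  · rw [e, a, a]
  · rw [e, a, show g * j⁻¹ * g⁻¹ = (g * j * g⁻¹)⁻¹ by group, a, inv_inv]

/-- for `h` centralising `y ∈ J t`: `h ∈ E t ↔ h ∈ E (t * y)` -/
theorem E_iff {t y h : H} (hy : y ∈ J t) (c : h * y = y * h) : h ∈ E t ↔ h ∈ E (t * y) := by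
  obtain ⟨n, hn⟩ := odd_sqrt hy.1
  have k : Commute h (y ^ n) := Commute.pow_right c n
  have e : (y ^ n)⁻¹ * t * (y ^ n)⁻¹⁻¹ = t * y := by
    have : t * y ^ n * t⁻¹ = (y ^ n)⁻¹ := by rw [← conj_pow, hy.2, inv_pow]
    rw [inv_inv, ← this]
    conv_rhs => rw [← hn]
    group
  refine ⟨fun a => ?_, fun a => ?_⟩
  · have := E_conj (y ^ n)⁻¹ a
    rwa [e, inv_inv, mul_assoc, k.eq, inv_mul_cancel_left] at this
  · have := E_conj (y ^ n) a
    rwa [← e, ← k.eq, mul_inv_cancel_right, show y ^ n * ((y ^ n)⁻¹ * t * (y ^ n)⁻¹⁻¹) * (y ^ n)⁻¹ = t by group] at this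

theorem J_mul {t y : H} (hy : y ∈ J t) : y ∈ J (t * y) :=
  ⟨hy.1, by rw [show t * y * y * (t * y)⁻¹ = t * y * t⁻¹ by group, hy.2]⟩

/-- an element of `E (t * y)` is `h` or `h * (t * y)` with `h ∈ E t` centralising `y` -/
theorem E_split {t y g : H} (h2 : t * t = 1) (hy : y ∈ J t) (a : g ∈ E (t * y)) :
    ∃ h ∈ E t, h * y = y * h ∧ (g = h ∨ g = h * (t * y)) := by
  rcases a.2 y (J_mul hy) with k | k
  · exact ⟨g, (E_iff hy (mul_inv_eq_iff_eq_mul.1 k)).2 a, mul_inv_eq_iff_eq_mul.1 k, .inl rfl⟩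
  have b2 : t * y * (t * y) = 1 := by
    rw [show t * y * (t * y) = t * y * t⁻¹ * (t * t) * y by group, hy.2, h2]; group
  have c : g * (t * y) * y = y * (g * (t * y)) := mul_inv_eq_iff_eq_mul.1 (by
    rw [show g * (t * y) * y * (g * (t * y))⁻¹ = g * (t * y * t⁻¹) * g⁻¹ by group, hy.2,
      show g * y⁻¹ * g⁻¹ = (g * y * g⁻¹)⁻¹ by group, k, inv_inv])
  exact ⟨g * (t * y), (E_iff hy c).2 (E_mul a (E_self _)), c, .inr (by rw [mul_assoc, b2, mul_one])⟩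

theorem sq_conj {κ y : H} (h2 : κ * κ = 1) : κ * y * κ = κ * y * κ⁻¹ := by rw [inv_eq_of_mul_eq_one_right h2]

/-- `κ y` an involution with `κ` an involution centralising `y` -/
theorem cen_one {κ y : H} (o : Odd (orderOf y)) (h2 : κ * κ = 1) (c : κ * y * κ⁻¹ = y) (h : κ * y * (κ * y) = 1) :
    y = 1 := odd_one o (by rw [← mul_assoc, sq_conj h2, c] at h; exact h)

theorem cj_cj {g h j : H} : g * h * j * (g * h)⁻¹ = g * (h * j * h⁻¹) * g⁻¹ := by group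

theorem cj_inv {g j : H} : g * j⁻¹ * g⁻¹ = (g * j * g⁻¹)⁻¹ := by group

theorem n0a : N0a.{u} := by
  intro H _ _ t g y z h2 hg hy hz gy gz hC
  by_contra! hn
  obtain ⟨y1, z1⟩ := hn
  have nc : y * z ≠ z * y := fun e => y1 (hC y rfl e)
  have yy : y⁻¹ ≠ y := fun e => y1 (odd_one hy.1 (by nth_rw 1 [← e]; group))
  have zz : z⁻¹ ≠ z := fun e => z1 (odd_one hz.1 (by nth_rw 1 [← e]; group))
  have E2 : ∀ h ∈ E t, h * h = 1 := fun h a => hC _ (sign_sq (a.2 y hy)) (sign_sq (a.2 z hz))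
  have ti : t⁻¹ = t := inv_eq_of_mul_eq_one_right h2
  have hβ := E_mul hg (E_self t)
  have βz : g * t * z * (g * t)⁻¹ = z := by rw [cj_cj, hz.2, cj_inv, gz, inv_inv]
  have βy : g * t * y * (g * t)⁻¹ = y⁻¹ := by rw [cj_cj, hy.2, cj_inv, gy]
  have gb := (E_iff hy (mul_inv_eq_iff_eq_mul.1 gy)).1 hg
  have βb := (E_iff hz (mul_inv_eq_iff_eq_mul.1 βz)).1 hβ
  have gβ : g * (g * t) = t := by rw [← mul_assoc, E2 g hg, one_mul]
  have ty : t * (t * y) = y := by rw [← mul_assoc, h2, one_mul]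
  have tz : t * (t * z) = z := by rw [← mul_assoc, h2, one_mul]
  have i1 : t * y * (y⁻¹ * z) * (t * y)⁻¹ = (y⁻¹ * z)⁻¹ := by
    rw [show t * y * (y⁻¹ * z) * (t * y)⁻¹ = t * z * t⁻¹ * (t * y * t⁻¹)⁻¹ by group, hy.2, hz.2]; group
  have i2 : t * z * (y⁻¹ * z) * (t * z)⁻¹ = (y⁻¹ * z)⁻¹ := by
    rw [show t * z * (y⁻¹ * z) * (t * z)⁻¹ = t * z * t⁻¹ * (t * y * t⁻¹)⁻¹ by group, hy.2, hz.2]; group
  have : Fact (Nat.Prime 2) := ⟨Nat.prime_two⟩
  obtain ⟨k, hk⟩ := CL.Even.exists_pow_coprime (p := 2) (y⁻¹ * z)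
  have w1 : (y⁻¹ * z) ^ 2 ^ k = 1 := by
    have j1 : (y⁻¹ * z) ^ 2 ^ k ∈ J (t * y) := ⟨Nat.coprime_two_right.1 hk, by rw [← conj_pow, i1, inv_pow]⟩
    have j2 : (y⁻¹ * z) ^ 2 ^ k ∈ J (t * z) := ⟨Nat.coprime_two_right.1 hk, by rw [← conj_pow, i2, inv_pow]⟩
    have s := sign_mul (gb.2 _ j1) (βb.2 _ j2)
    rw [gβ] at s
    have s1 := sign_mul s (.inr j1.2)
    have s2 := sign_mul s (.inr j2.2)
    rw [ty] at s1
    rw [tz] at s2
    exact hC _ (odd_sign hy.1 s1).symm (odd_sign hz.1 s2).symm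
  obtain ⟨⟨e, n, rfl⟩, he⟩ := exists_prime_orderOf_dvd_card' (G := zpowers (y⁻¹ * z)) 2 (by
    rw [Nat.card_zpowers]
    refine even_iff_two_dvd.1 (Nat.not_odd_iff_even.1 fun o => nc ?_)
    rw [inv_mul_eq_one.1 (CL.Even.eq_one_of_coprime_of_pow (Nat.coprime_two_right.2 o) w1)])
  replace he : orderOf ((y⁻¹ * z) ^ n) = 2 := (Subgroup.orderOf_coe _).trans he
  have c1 : t * y * (y⁻¹ * z) ^ n * (t * y)⁻¹ = ((y⁻¹ * z) ^ n)⁻¹ := by rw [← conj_zpow, i1, inv_zpow]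
  have c2 : t * z * (y⁻¹ * z) ^ n * (t * z)⁻¹ = ((y⁻¹ * z) ^ n)⁻¹ := by rw [← conj_zpow, i2, inv_zpow]
  generalize (y⁻¹ * z) ^ n = e at he c1 c2
  have e2 : e * e = 1 := by rw [← pow_two, ← he, pow_orderOf_eq_one]
  rw [inv_eq_of_mul_eq_one_right e2] at c1 c2
  replace c1 : e * (t * y) * e⁻¹ = t * y := mul_inv_eq_iff_eq_mul.2 (mul_inv_eq_iff_eq_mul.1 c1).symm
  replace c2 : e * (t * z) * e⁻¹ = t * z := mul_inv_eq_iff_eq_mul.2 (mul_inv_eq_iff_eq_mul.1 c2).symm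
  have back : ∀ a b : H, e * b * e⁻¹ = b → Commute (e * a * e⁻¹) b → Commute a b := fun a b h c =>
    (MulAut.conj e).injective (by simpa only [map_mul, MulAut.conj_apply, h] using c.eq)
  obtain ⟨h, hh, hy', a⟩ := E_split h2 hy (c1 ▸ E_conj e gb)
  obtain ⟨h', hh', hz', a'⟩ := E_split h2 hz (c2 ▸ E_conj e βb)
  have τ : e * t * e⁻¹ = e * g * e⁻¹ * (e * (g * t) * e⁻¹) := by conv_lhs => rw [← gβ]
                                                                 group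
  have τ2 : e * t * e⁻¹ * (e * t * e⁻¹) = 1 := by rw [show e * t * e⁻¹ * (e * t * e⁻¹) = e * (t * t) * e⁻¹ by group, h2]; group
  have hc := mul_inv_eq_iff_eq_mul.2 hy'
  have hc' := mul_inv_eq_iff_eq_mul.2 hz'
  rcases a with a | a <;> rcases a' with a' | a' <;> rw [a, a'] at τ
  · have hκ := E_mul (E_mul hh hh') (E_self t)
    have v : e * y * e⁻¹ = h * h' * t * y := by rw [mul_assoc (h * h'), ← τ, ← c1]; conv_lhs => rw [← ty]
                                                group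
    have o : Odd (orderOf (h * h' * t * y)) := v ▸ (J_conj e hy).1
    have κ1 : h * h' * t = 1 := by
      rcases hκ.2 y hy with s | s
      · have cm : Commute (h * h' * t * y) y⁻¹ :=
          (Commute.mul_left (mul_inv_eq_iff_eq_mul.1 s) (Commute.refl y)).inv_right
        refine odd_one ?_ (E2 _ hκ)
        simpa using (o.mul (orderOf_inv y ▸ hy.1)).of_dvd_nat cm.orderOf_mul_dvd_mul_orderOf
      · have := odd_one o (by rw [← mul_assoc, sq_conj (E2 _ hκ), s, inv_mul_cancel])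
        rw [this] at v
        exact (y1 (by simpa using v)).elim
    have v' : e * z * e⁻¹ = h * h' * t * z := by rw [mul_assoc (h * h'), ← τ, ← c2]; conv_lhs => rw [← tz]
                                                 group
    rw [κ1, one_mul] at v v'
    rw [hC e (mul_inv_eq_iff_eq_mul.1 v) (mul_inv_eq_iff_eq_mul.1 v')] at he
    simp at he
  · rcases hh.2 z hz with s | s
    · have := back g _ c2 (a ▸ Commute.mul_right hh.1 (mul_inv_eq_iff_eq_mul.1 s))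
      refine zz (gz ▸ mul_inv_eq_iff_eq_mul.2 (tz ▸ Commute.mul_right hg.1 this).eq)
    · refine z1 (cen_one hz.1 (E2 _ (E_mul (E_mul hh hh') (E_self t))) (by
        rw [cj_cj, hz.2, cj_inv, cj_cj, hc', s, inv_inv]) ?_)
      rw [← τ2, τ]; group
  · rcases hh'.2 y hy with s | s
    · have := back (g * t) _ c1 (a' ▸ Commute.mul_right hh'.1 (mul_inv_eq_iff_eq_mul.1 s))
      refine yy (βy ▸ mul_inv_eq_iff_eq_mul.2 (ty ▸ Commute.mul_right hβ.1 this).eq)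
    · refine y1 (inv_eq_one.1 (cen_one (orderOf_inv y ▸ hy.1) (E2 _ (E_mul (E_mul hh (E_self t)) hh')) (by
        rw [cj_inv, cj_cj, s, cj_inv, cj_cj, hy.2, cj_inv, hc, inv_inv]) ?_))
      rw [← τ2, τ, ← s, inv_eq_of_mul_eq_one_right (E2 _ hh'), show h * t * h' * (h' * y * h') = h * t * (h' * h') * y * h' by
        group, E2 _ hh']; group
  rcases hh'.2 y hy with s' | s'
  · have c : Commute (g * t * (t * z)⁻¹) (t * y) := back _ _ c1 (by
      rw [show e * (g * t * (t * z)⁻¹) * e⁻¹ = e * (g * t) * e⁻¹ * (e * (t * z) * e⁻¹)⁻¹ by group, a', c2,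
        mul_inv_cancel_right]
      exact Commute.mul_right hh'.1 (mul_inv_eq_iff_eq_mul.1 s'))
    rw [show g * t * (t * z)⁻¹ = g * (t * z * t⁻¹)⁻¹ by group, hz.2, inv_inv] at c
    have c' : Commute z (t * y) := by simpa using (Commute.inv_left gb.1).mul_left c
    refine nc (odd_sign hy.1 (.inr ?_))
    rw [← ty, cj_cj, mul_inv_eq_iff_eq_mul.2 c'.symm.eq, hz.2]
  rcases hh.2 z hz with s | s
  · have c : Commute (g * (t * y)⁻¹) (t * z) := back _ _ c2 (by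
      rw [show e * (g * (t * y)⁻¹) * e⁻¹ = e * g * e⁻¹ * (e * (t * y) * e⁻¹)⁻¹ by group, a, c1, mul_inv_cancel_right]
      exact Commute.mul_right hh.1 (mul_inv_eq_iff_eq_mul.1 s))
    have c' := (Commute.inv_left βb.1).mul_left c
    rw [show (g * t)⁻¹ * (g * (t * y)⁻¹) = (t⁻¹⁻¹ * y * t)⁻¹ by group, inv_inv, sq_conj h2, hy.2, inv_inv] at c'
    refine nc (odd_sign hz.1 (.inr ?_)).symm
    rw [← tz, cj_cj, mul_inv_eq_iff_eq_mul.2 c'.symm.eq, hy.2]
  have k : h * (t * y) * (h' * (t * z)) = h * h' * y * z := by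
    have u : y * h' = h' * y⁻¹ := by rw [← s', ← mul_assoc, ← mul_assoc, E2 _ hh', inv_eq_of_mul_eq_one_right (E2 _ hh'), one_mul]
    calc h * (t * y) * (h' * (t * z)) = h * t * (y * h') * t * z := by group
      _ = h * (t * h') * (y⁻¹ * t) * z := by rw [u]; group
      _ = h * h' * (t * t) * y * z := by rw [← hh'.1, ← mul_inv_eq_iff_eq_mul.1 hy.2]; group
      _ = _ := by rw [h2, mul_one]
  have κ2 := E2 _ (E_mul hh hh')
  rw [τ, k, show h * h' * y * z * (h * h' * y * z) = h * h' * y * (h * h')⁻¹ * (h * h' * z * (h * h')) * y * z by group,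
    sq_conj κ2, cj_cj, cj_cj, s', hc', s, cj_inv, hc] at τ2
  exact nc (by rw [← mul_one (z * y), ← τ2]; group)

end CL.IO2
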