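/-
Project IO2 (S3929): squaring has small fibres (`SQ`) and the centraliser in the quotient (`CQ`).
-/
import Cfsg.Agent.IO2.Defs

set_option autoImplicit false

open Cfsg Subgroup

namespace CL.IO2

universe u

theorem sq_fib {X : Type*} [Group X] [Finite X] (C : Subgroup X) (S T : Set X) (f : X → X)
    (hm : ∀ s ∈ S, f s ∈ T) (hf : ∀ s ∈ S, ∀ s' ∈ S, f s = f s' → s⁻¹ * s' ∈ C) :
    S.ncard ≤ Nat.card C * T.ncard := by
  classical
  have hS : S.Finite := Set.toFinite S
  have hT : T.Finite := Set.toFinite T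
  rw [Set.ncard_eq_toFinset_card S hS, Set.ncard_eq_toFinset_card T hT]
  refine Finset.card_le_mul_card_image_of_maps_to (f := f) (fun a ha => ?_) _ (fun b _ => ?_)
  · rw [Set.Finite.mem_toFinset] at ha ⊢
    exact hm a ha
  · rcases (hS.toFinset.filter (fun a => f a = b)).eq_empty_or_nonempty with h | ⟨s0, hs0⟩
    · rw [h]; simp
    · rw [Finset.mem_filter, Set.Finite.mem_toFinset] at hs0
      have h1 : ((hS.toFinset.filter (fun a => f a = b) : Finset X) : Set X).ncard ≤ (C : Set X).ncard := by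
        refine Set.ncard_le_ncard_of_injOn (fun s => s0⁻¹ * s) (fun s hs => ?_) (fun a _ b _ h => ?_) (Set.toFinite _)
        · rw [Finset.mem_coe, Finset.mem_filter, Set.Finite.mem_toFinset] at hs
          exact hf s0 hs0.1 s hs.1 (hs0.2.trans hs.2.symm)
        · exact mul_left_cancel h
      rw [Set.ncard_coe_finset] at h1
      exact h1.trans (le_of_eq (Nat.card_coe_set_eq (C : Set X)).symm)

theorem sq : SQ.{u} := by
  intro X _ _ t a ht
  induction a with
  | zero =>
    rw [pow_zero, pow_zero]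
    refine (Set.ncard_le_one (Set.toFinite _)).2 (fun s hs s' hs' => ?_)
    have h1 : t * s = 1 := by simpa using hs.2
    have h2 : t * s' = 1 := by simpa using hs'.2
    exact mul_left_cancel (h1.trans h2.symm)
  | succ a ih =>
    have h := sq_fib (centralizer ({t} : Set X)) {s : X | s * s = 1 ∧ (t * s) ^ 2 ^ (a + 1) = 1}
      {s : X | s * s = 1 ∧ (t * s) ^ 2 ^ a = 1} (fun s => s * t * s) (fun s hs => ⟨?_, ?_⟩) (fun s hs s' hs' h => ?_)
    · rw [pow_succ' (Nat.card _)]
      exact h.trans (Nat.mul_le_mul_left _ ih)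
    · calc s * t * s * (s * t * s) = s * t * (s * s) * t * s := by group
        _ = s * (t * t) * s := by rw [hs.1]; group
        _ = 1 := by rw [ht, mul_one, hs.1]
    · have e : t * (s * t * s) = (t * s) ^ 2 := by rw [pow_two]; group
      rw [e, ← pow_mul, ← pow_succ']
      exact hs.2
    · have hi : s⁻¹ = s := inv_eq_of_mul_eq_one_right hs.1
      have h' : s * t * s = s' * t * s' := h
      rw [mem_centralizer_singleton_iff, hi]
      calc s * s' * t = s * (s' * t * s') * s' * (s' * s')⁻¹ := by group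
        _ = (s * s) * t * (s * s') := by rw [← h', hs'.1]; group
        _ = t * (s * s') := by rw [hs.1, one_mul]

theorem cq : CQ.{u} := by
  intro S _ _ A hA t hc ht
  have hti : t⁻¹ = t := inv_eq_of_mul_eq_one_right ht
  have hcomm : ∀ a ∈ A, ∀ b ∈ A, a * b = b * a := fun a ha b hb =>
    congrArg Subtype.val (hc.is_comm.comm (⟨a, ha⟩ : A) ⟨b, hb⟩)
  let ν : A →* S := MonoidHom.mk' (fun a => (a : S) * (t * a * t⁻¹)) (fun a b => by
    have h := hcomm b b.2 (t * a * t⁻¹) (hA.conj_mem _ a.2 t)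
    calc ((a * b : A) : S) * (t * ((a * b : A) : S) * t⁻¹) = a * ((b : S) * (t * a * t⁻¹)) * (t * b * t⁻¹) := by
          rw [Subgroup.coe_mul]; group
      _ = _ := by rw [h]; group)
  have hν : ∀ a : A, ν a = (a : S) * (t * a * t⁻¹) := fun _ => rfl
  have hr : {x : S | ∃ a ∈ A, x = a * (t * a * t⁻¹)}.ncard = Nat.card ν.range := by
    rw [← Nat.card_coe_set_eq]
    have : {x : S | ∃ a ∈ A, x = a * (t * a * t⁻¹)} = (ν.range : Set S) := by
      ext x
      constructor
      · rintro ⟨a, ha, rfl⟩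
        exact ⟨⟨a, ha⟩, rfl⟩
      · rintro ⟨a, rfl⟩
        exact ⟨a, a.2, rfl⟩
    rw [this]
    rfl
  have hA2 : Nat.card ν.ker * Nat.card ν.range = Nat.card A := by
    rw [← Subgroup.index_ker, Subgroup.card_mul_index]
  have hP := QuotientGroup.card_preimage_mk A
    ((centralizer ({QuotientGroup.mk' A t} : Set (S ⧸ A)) : Subgroup (S ⧸ A)) : Set (S ⧸ A))
  have h := sq_fib (centralizer ({t} : Set S))
    (QuotientGroup.mk ⁻¹' ((centralizer ({QuotientGroup.mk' A t} : Set (S ⧸ A)) : Subgroup (S ⧸ A)) : Set (S ⧸ A)))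
    ((ν.ker.map A.subtype : Subgroup S) : Set S) (fun g => g * t * g⁻¹ * t) (fun g hg => ?_) (fun g _ g' _ h => ?_)
  · have hk : ((ν.ker.map A.subtype : Subgroup S) : Set S).ncard = Nat.card ν.ker := by
      rw [← Nat.card_coe_set_eq]
      exact Subgroup.card_map_of_injective A.subtype_injective
    rw [← Nat.card_coe_set_eq, hP, hk, ← hA2] at h
    rw [hr]
    have hpos : 0 < Nat.card ν.ker := Nat.card_pos
    refine Nat.le_of_mul_le_mul_left ?_ hpos
    calc Nat.card ν.ker * (Nat.card (centralizer ({QuotientGroup.mk' A t} : Set (S ⧸ A))) * Nat.card ν.range)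
        = Nat.card ν.ker * Nat.card ν.range * Nat.card (centralizer ({QuotientGroup.mk' A t} : Set (S ⧸ A))) := by ring
      _ ≤ Nat.card (centralizer ({t} : Set S)) * Nat.card ν.ker := h
      _ = _ := mul_comm _ _
  · have hg' : (QuotientGroup.mk g : S ⧸ A) * QuotientGroup.mk t = QuotientGroup.mk t * QuotientGroup.mk g :=
      mem_centralizer_singleton_iff.1 hg
    have hcA : g * t * g⁻¹ * t ∈ A := by
      rw [← QuotientGroup.eq_one_iff, QuotientGroup.mk_mul, QuotientGroup.mk_mul, QuotientGroup.mk_mul, hg',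
        QuotientGroup.mk_inv, mul_inv_cancel_right, ← QuotientGroup.mk_mul, ht, QuotientGroup.mk_one]
    refine ⟨⟨_, hcA⟩, ?_, rfl⟩
    rw [SetLike.mem_coe, MonoidHom.mem_ker, hν]
    calc g * t * g⁻¹ * t * (t * (g * t * g⁻¹ * t) * t⁻¹) = g * t * g⁻¹ * (t * t) * g * t * g⁻¹ := by group
      _ = g * (t * t) * g⁻¹ := by rw [ht, mul_one (g * t * g⁻¹), ← ht]; group
      _ = 1 := by rw [ht]; group
  · have h' : g * t * g⁻¹ = g' * t * g'⁻¹ := mul_right_cancel h
    rw [mem_centralizer_singleton_iff]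
    calc g⁻¹ * g' * t = g⁻¹ * (g' * t * g'⁻¹) * g' := by group
      _ = t * (g⁻¹ * g') := by rw [← h']; group

end CL.IO2
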