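/-
Project IO2 (S3929): the 2-group bound.
-/
import Cfsg.Agent.IO2.Defs
import Cfsg.Agent.Grp.PGroupBasic

set_option autoImplicit false

open Cfsg Subgroup
open scoped Pointwise

namespace CL.IO2

universe u

namespace Twox

theorem num {k β δ : ℕ} (hk : 1 ≤ k) (hβ : 2 ^ β ≤ k) (hδ : δ ≤ k) :
    ∃ i, 2 * δ < 2 ^ i ∧ (2 ^ (i + β)) ^ (k - δ) ≤ (2 * k ^ 2) ^ (k - 1) := by
  have k2 : ∀ n, n ≤ 2 * (k - 1) → k ^ n ≤ (2 * k ^ 2) ^ (k - 1) := fun n hn =>
    (Nat.pow_le_pow_right hk hn).trans (by rw [pow_mul]; exact Nat.pow_le_pow_left (by omega) _)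
  rcases Nat.eq_zero_or_pos δ with rfl | h0
  · refine ⟨0, by simp, ?_⟩
    rw [zero_add, Nat.sub_zero]
    refine (Nat.pow_le_pow_left hβ _).trans ?_
    rcases hk.eq_or_lt with rfl | h
    · simp
    · exact k2 k (by omega)
  · refine ⟨Nat.log 2 (2 * δ) + 1, Nat.lt_pow_succ_log_self one_lt_two _, ?_⟩
    have l := Nat.pow_log_le_self 2 (show 2 * δ ≠ 0 by omega)
    have b : 2 ^ (Nat.log 2 (2 * δ) + 1 + β) ≤ 4 * δ * k := by
      rw [pow_add, pow_succ]
      exact Nat.mul_le_mul (by omega) hβ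
    refine (Nat.pow_le_pow_left b _).trans ?_
    rcases le_or_gt (2 * δ) k with h | h
    · exact (Nat.pow_le_pow_left (show 4 * δ * k ≤ 2 * k ^ 2 by nlinarith) _).trans
        (Nat.pow_le_pow_right (by positivity) (by omega))
    · refine (Nat.pow_le_pow_left (show 4 * δ * k ≤ (2 * k ^ 2) ^ 2 from ?_) _).trans ?_
      · calc 4 * δ * k ≤ 4 * k * k := by gcongr
          _ = (2 * k) ^ 2 := by ring
          _ ≤ _ := Nat.pow_le_pow_left (by nlinarith) _
      · rw [← pow_mul]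
        exact Nat.pow_le_pow_right (by positivity) (by omega)

variable {S : Type*} [Group S] (A : Subgroup S) [hA : A.Normal] (c : ∀ a ∈ A, ∀ b ∈ A, Commute a b)

/-- the norms -/
def N (s : S) : Subgroup S where
  carrier := {x | ∃ a ∈ A, x = a * (s * a * s⁻¹)}
  one_mem' := ⟨1, one_mem _, by simp⟩
  mul_mem' := by
    rintro _ _ ⟨a, ha, rfl⟩ ⟨b, hb, rfl⟩
    exact ⟨a * b, mul_mem ha hb, by rw [(c _ (hA.conj_mem a ha s) b hb).mul_mul_mul_comm, conj_mul]⟩
  inv_mem' := by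
    rintro _ ⟨a, ha, rfl⟩
    exact ⟨a⁻¹, inv_mem ha, by rw [(c _ ha _ (hA.conj_mem a ha s)).eq, mul_inv_rev, conj_inv]⟩

theorem N_le (s : S) : N A c s ≤ A := by
  rintro _ ⟨a, ha, rfl⟩
  exact mul_mem ha (hA.conj_mem a ha s)

theorem N_comm {s : S} (hs : s * s = 1) {x : S} (hx : x ∈ N A c s) : x * s = s * x := by
  obtain ⟨a, ha, rfl⟩ := hx
  have i : s⁻¹ = s := inv_eq_of_mul_eq_one_right hs
  conv_rhs => rw [(c _ ha _ (hA.conj_mem a ha s)).eq]
  rw [i]
  simp only [← mul_assoc, hs, one_mul]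
  rw [mul_assoc _ s s, hs, mul_one]

omit hA in
/-- the elements of bounded order -/
def Ex (n : ℕ) : Subgroup S where
  carrier := {x | x ∈ A ∧ x ^ n = 1}
  one_mem' := ⟨one_mem _, one_pow n⟩
  mul_mem' := fun ha hb => ⟨mul_mem ha.1 hb.1, by rw [(c _ ha.1 _ hb.1).mul_pow, ha.2, hb.2, one_mul]⟩
  inv_mem' := fun ha => ⟨inv_mem ha.1, by rw [inv_pow, ha.2, inv_one]⟩

end Twox

open Twox in
theorem two (h1 : MOD.{u}) (h2 : SQ.{u}) (h3 : CQ.{u}) : TWO.{u} := by
  intro S _ _ D k β hS hk hβ hD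
  rcases D.eq_empty_or_nonempty with rfl | ne
  · exact ⟨⊥, inferInstance, by simp⟩
  have := hS.isNilpotent
  obtain ⟨A, nA, cA, -, sc⟩ := CL.Grp.exists_selfCentralizing_abelian_normal (⊥ : Subgroup S)
  have c : ∀ a ∈ A, ∀ b ∈ A, Commute a b := fun a ha b hb => setLike_mul_comm ha hb
  refine ⟨A, cA, ?_⟩
  obtain ⟨t, ht, mx⟩ := D.exists_max_image (fun s => Nat.card (N A c s)) D.toFinite ne
  obtain ⟨δ, hδ⟩ := IsPGroup.iff_card.1 (hS.to_subgroup (N A c t))
  have dk : δ ≤ k := (Nat.pow_le_pow_iff_right one_lt_two).1 (hδ ▸ (card_le_of_le fun x hx =>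
    mem_centralizer_singleton_iff.2 (N_comm A c (hD t ht).1 hx)).trans (hD t ht).2.1)
  obtain ⟨i, i1, i2⟩ := num hk hβ dk
  have ex : ∀ s ∈ D, N A c s ≤ Ex A c (2 ^ (β + 1)) := fun s hs x hx =>
    ⟨N_le A c s hx, (hD s hs).2.2 x (N_comm A c (hD s hs).1 hx)⟩
  have key : ∀ s ∈ D, (t * s) ^ 2 ^ (i + β) ∈ A := fun s hs => by
    have e := sup_le (ex t ht) (ex s hs)
    refine sc.le fun a ha => (h1 S A (N A c t ⊔ N A c s) (t * s) (2 * δ) β i hS cA (fun x hx => (e hx).1)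
      (fun a ha => ?_) ?_ (fun x hx => (e hx).2) i1 a ha).symm
    · have hb := nA.conj_mem a ha s
      have := mul_mem (mem_sup_left (T := N A c s) (⟨_, hb, rfl⟩ : _ ∈ N A c t))
        (inv_mem (mem_sup_right (S := N A c t) (⟨a, ha, rfl⟩ : _ ∈ N A c s)))
      rw [(c _ hb _ (nA.conj_mem _ hb t)).eq] at this
      convert this using 1
      group
    · have := Set.natCard_mul_le (s := (N A c t : Set S)) (t := (N A c s : Set S))
      rw [← coe_mul_of_left_le_normalizer_right _ _ fun x hx => centralizer_le_normalizer _ fun y hy =>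
        c _ (N_le A c s hy) _ (N_le A c t hx)] at this
      rw [two_mul, pow_add, ← hδ]
      exact this.trans (Nat.mul_le_mul_left _ (mx s hs))
  set π := QuotientGroup.mk' A
  have sq := h2 (S ⧸ A) (π t) (i + β) (by rw [← map_mul, (hD t ht).1, map_one])
  have cq := (h3 S A t cA (hD t ht).1).trans (hD t ht).2.1
  rw [← Nat.card_coe_set_eq, show Nat.card {x : S | ∃ a ∈ A, x = a * (t * a * t⁻¹)} = 2 ^ δ from hδ,
    ← Nat.sub_add_cancel dk, pow_add] at cq
  have le : D ⊆ QuotientGroup.mk ⁻¹' {s : S ⧸ A | s * s = 1 ∧ (π t * s) ^ 2 ^ (i + β) = 1} := fun s hs =>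
    ⟨(map_mul π s s).symm.trans (by rw [(hD s hs).1, map_one]),
      (congrArg (· ^ _) (map_mul π t s).symm).trans ((map_pow π _ _).symm.trans
        ((QuotientGroup.eq_one_iff _).2 (key s hs)))⟩
  refine (Set.ncard_le_ncard le).trans ?_
  rw [← Nat.card_coe_set_eq, QuotientGroup.card_preimage_mk, mul_comm, Nat.card_coe_set_eq]
  refine Nat.mul_le_mul_right _ (sq.trans ((Nat.pow_le_pow_left (Nat.le_of_mul_le_mul_right cq (by positivity)) _).trans ?_))
  rwa [← pow_mul, mul_comm, pow_mul]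

end CL.IO2
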