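/-
Project IO2 (helper38): the Chermak-Delgado bound and the centreless case.
-/
import Cfsg.Agent.IO2.Defs

set_option autoImplicit false

open Cfsg Subgroup
open scoped Pointwise

namespace CL.IO2

universe u

theorem cdf : CDF.{u} := by
  intro G _ _ A hA
  let M : Subgroup G := sInf {R | IsCentralizerLarge R}
  have hM : IsCentralizerLarge M :=
    CL.Even.isCentralizerLarge_sInf (fun _ h => h) (CL.Even.exists_isCentralizerLarge G)
  have hn : M.Normal := ⟨fun x hx g => mem_sInf.2 fun R hR => by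
    have h1 : x ∈ MulAut.conj g⁻¹ • R := mem_sInf.1 hx _ (IsCentralizerLarge.cl_conj hR g⁻¹)
    rw [mem_pointwise_smul_iff_inv_smul_mem] at h1
    simpa using h1⟩
  have hc : M ≤ centralizer (M : Set G) := sInf_le hM.cl_centralizer
  have hF : M ≤ fittingSubgroup G := CL.Grp.le_fittingSubgroup
    (CL.Grp.isNilpotent_of_isMulCommutative (le_centralizer_iff_isMulCommutative.1 hc))
  have h1 : Nat.card A * Nat.card A ≤ Nat.card M * Nat.card G :=
    calc Nat.card A * Nat.card A ≤ CL.Even.cdm A :=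
          Nat.mul_le_mul_left _ (card_le_of_le (le_centralizer_iff_isMulCommutative.2 hA))
      _ ≤ CL.Even.cdm M := (CL.Even.cdm_le_max A).trans (CL.Even.isCentralizerLarge_iff.1 hM).ge
      _ ≤ _ := Nat.mul_le_mul_left _ (card_le_card_group _)
  have h2 := A.card_mul_index
  have h3 := M.card_mul_index
  have h4 : M.index ≤ A.index ^ 2 := by
    refine Nat.le_of_mul_le_mul_left (c := Nat.card M * Nat.card G) ?_ (Nat.mul_pos Nat.card_pos Nat.card_pos)
    calc Nat.card M * Nat.card G * M.index = (Nat.card M * M.index) * Nat.card G := by ring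
      _ = (Nat.card A * A.index) * (Nat.card A * A.index) := by rw [h3, h2]
      _ = Nat.card A * Nat.card A * A.index ^ 2 := by ring
      _ ≤ _ := Nat.mul_le_mul_right _ h1
  exact (Nat.le_of_dvd (Nat.pos_of_ne_zero M.index_ne_zero_of_finite) (index_dvd_of_le hF)).trans h4

namespace ZLx

variable {G : Type*} [Group G]

theorem mul_conj (α : MulAut G) (g : G) : α * MulAut.conj g = MulAut.conj (α g) * α := by
  ext x; simp

/-- the group generated by the inner automorphisms and an involutory automorphism -/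
def HH (α : MulAut G) (hα : α * α = 1) : Subgroup (MulAut G) where
  carrier := {φ | ∃ g, φ = MulAut.conj g ∨ φ = MulAut.conj g * α}
  one_mem' := ⟨1, .inl (map_one _).symm⟩
  mul_mem' := by
    rintro _ _ ⟨g, rfl | rfl⟩ ⟨k, rfl | rfl⟩
    · exact ⟨g * k, .inl (map_mul _ _ _).symm⟩
    · exact ⟨g * k, .inr (by rw [map_mul, mul_assoc])⟩
    · exact ⟨g * α k, .inr (by rw [map_mul, mul_assoc, mul_conj, mul_assoc])⟩
    · exact ⟨g * α k, .inl (by
        rw [map_mul, mul_assoc, ← mul_assoc α, mul_conj, mul_assoc, hα, mul_one])⟩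
  inv_mem' := by
    rintro _ ⟨g, rfl | rfl⟩
    · exact ⟨g⁻¹, .inl (map_inv _ _).symm⟩
    · exact ⟨α g⁻¹, .inr (by rw [mul_inv_rev, inv_eq_of_mul_eq_one_right hα, ← map_inv, mul_conj])⟩

end ZLx

open ZLx in
theorem zl (h1 : MM.{u}) (h2 : CDF.{u}) : ZL.{u} := by
  intro G _ _ _ α hα hgen hZ
  have hα' : α * α = 1 := MulEquiv.ext hα
  have hinj : Function.Injective (MulAut.conj : G →* MulAut G) := by
    refine (injective_iff_map_eq_one _).2 fun g hg => ?_
    rw [← mem_bot, ← hZ, mem_center_iff]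
    intro x
    have := DFunLike.congr_fun hg x
    simp only [MulAut.conj_apply, MulAut.one_apply] at this
    exact (mul_inv_eq_iff_eq_mul.1 this).symm
  let ι : G →* HH α hα' := MulAut.conj.codRestrict _ fun g => ⟨g, .inl rfl⟩
  have hι : Function.Injective ι := fun a b e => hinj (congrArg Subtype.val e)
  have : Nontrivial (HH α hα') := hι.nontrivial
  let t : HH α hα' := ⟨α, 1, .inr (by rw [map_one, one_mul])⟩
  have hc : ∀ (h : HH α hα') (g : G), h * ι g * h⁻¹ = ι (h.1 g) := fun h g => Subtype.ext (by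
    change h.1 * MulAut.conj g * h.1⁻¹ = MulAut.conj (h.1 g)
    rw [mul_conj, mul_inv_cancel_right])
  have hJ : J t = ι '' CL.Fgs.invOdd α := by
    ext φ
    constructor
    · rintro ⟨o, e⟩
      obtain ⟨g, rfl⟩ : φ ∈ ι.range := by
        obtain ⟨g, k | k⟩ := φ.2
        · exact ⟨g, Subtype.ext k.symm⟩
        · have h3 : φ ^ 2 ∈ ι.range := ⟨g * α g, Subtype.ext (by
            change MulAut.conj (g * α g) = φ.1 ^ 2
            rw [k, pow_two, map_mul, mul_assoc, ← mul_assoc α, mul_conj α, mul_assoc, hα', mul_one])⟩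
          obtain ⟨n, hn⟩ := o
          have h4 : φ = (φ ^ 2) ^ (n + 1) := by
            rw [← pow_mul, show 2 * (n + 1) = 2 * n + 1 + 1 by ring, pow_succ, ← hn, pow_orderOf_eq_one, one_mul]
          rw [h4]
          exact pow_mem h3 _
      refine ⟨g, ⟨by rwa [orderOf_injective ι hι] at o, hι ?_⟩, rfl⟩
      rw [map_inv, ← e, hc]
    · rintro ⟨g, ⟨o, e⟩, rfl⟩
      exact ⟨by rwa [orderOf_injective ι hι], by rw [hc, ← map_inv, ← e]⟩
  obtain ⟨A, hA, hi⟩ := h1 (HH α hα') t (Subtype.ext hα') fun h hh => by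
    have h3 : ∀ y ∈ CL.Fgs.invOdd α, h.1 y = y := fun y hy => hι (by
      rw [← hc, hh (ι y) (hJ ▸ ⟨y, hy, rfl⟩), mul_inv_cancel_right])
    refine Subtype.ext (MulEquiv.ext fun x => ?_)
    have hx : x ∈ closure (CL.Fgs.invOdd α) := hgen ▸ mem_top x
    change h.1 x = x
    induction hx using closure_induction with
    | mem y hy => exact h3 y hy
    | one => exact map_one _
    | mul a b _ _ ha hb => rw [map_mul, ha, hb]
    | inv a _ ha => rw [map_inv, ha]
  rw [hJ, Set.ncard_image_of_injective _ hι] at hi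
  have hA' : IsMulCommutative (A.comap ι) := ⟨⟨fun a b => Subtype.ext (hι (by
    rw [coe_mul, coe_mul, map_mul, map_mul]
    exact congrArg Subtype.val (hA.is_comm.comm ⟨ι a, a.2⟩ ⟨ι b, b.2⟩)))⟩⟩
  have h4 : (A.comap ι).index ≤ A.index := by
    rw [index_comap, ← relIndex_top_right]
    exact relIndex_le_of_le_right le_top (by rw [relIndex_top_right]; exact A.index_ne_zero_of_finite)
  calc (fittingSubgroup G).index ≤ (A.comap ι).index ^ 2 := h2 G _ hA'
    _ < ((CL.Fgs.invOdd α).ncard.factorial ^ 2) ^ 2 := Nat.pow_lt_pow_left (h4.trans_lt hi) two_ne_zero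
    _ = _ := by rw [← pow_mul]

end CL.IO2
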